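import Cfsg.Agent.SL2Pres.ShortPres
import Cfsg.Agent.SL2.PSL
set_option autoImplicit false

/-!
Short presentations of `SL₂(F)` and `PSL₂(F)`: the statements.
-/

namespace CfsgLib.SL2Pres.Short

open CfsgLib.SL2

variable {F : Type*} [Field F] [Fintype F]

theorem exists_primitive : ∃ ω : Fˣ, ∀ z : Fˣ, z ∈ Subgroup.zpowers ω := IsCyclic.exists_generator

theorem upperU_inv (a : F) : (upperU a)⁻¹ = upperU (-a) :=
  ((upperHom F).map_inv (Multiplicative.ofAdd a)).symm

omit [Fintype F] in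
theorem wOne_diag (ω : Fˣ) : wOne F * diagT ω * (wOne F)⁻¹ = (diagT ω)⁻¹ := by
  rw [mul_inv_eq_iff_eq_mul, eq_inv_mul_iff_mul_eq]
  refine ext2 ?_ ?_ ?_ ?_ <;> simp [wOne, mul00, mul01, mul10, mul11]

omit [Fintype F] in
theorem wOne_sq : wOne F * wOne F = -1 := by
  refine ext2 ?_ ?_ ?_ ?_ <;> simp [wOne, mul00, mul01, mul10, mul11]

omit [Fintype F] in
theorem upper_pow (p : ℕ) [CharP F p] : upperU (1 : F) ^ p = 1 := by
  rw [upperU_nsmul, CharP.cast_eq_zero, zero_mul]
  exact (upperHom F).map_one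

omit [Fintype F] in
theorem diag_pow_conj (ω : Fˣ) (m : ℕ) (v : F) :
    diagT ω ^ m * upperU v * (diagT ω ^ m)⁻¹ = upperU (((ω : F) ^ 2) ^ m * v) := by
  rw [← show diagHom F ω = diagT ω from rfl, ← map_pow]
  show diagT (ω ^ m) * upperU v * (diagT (ω ^ m))⁻¹ = _
  rw [diag_conj, Units.val_pow_eq_pow_val, ← pow_mul, ← pow_mul, mul_comm m 2]

/-- Presentations in every characteristic. -/
theorem nine (p : ℕ) [Fact p.Prime] [CharP F p] (ω : Fˣ) (hω : ∀ z : Fˣ, z ∈ Subgroup.zpowers ω)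
    (l n : ℕ) (hn : 0 < n) (hcard : p ^ n ≤ Fintype.card F)
    (hspan : AddSubgroup.closure (Set.range fun i : Fin n => (((ω : F) ^ 2) ^ l) ^ (i : ℕ)) = ⊤)
    (hk : 3 ≤ n → ∃ k : ℕ, ((ω : F) ^ 2) ^ k = ((ω : F) ^ 2) ^ l + 1) :
    (∃ rels : Finset (FreeGroup (Fin 3)), rels.card ≤ 9 ∧
      Nonempty (PresentedGroup (↑rels : Set (FreeGroup (Fin 3))) ≃* Matrix.SpecialLinearGroup (Fin 2) F)) ∧
    (∃ rels : Finset (FreeGroup (Fin 3)), rels.card ≤ 9 ∧
      Nonempty (PresentedGroup (↑rels : Set (FreeGroup (Fin 3))) ≃* Matrix.ProjectiveSpecialLinearGroup (Fin 2) F)) := by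
  classical
  obtain ⟨Wr, hWr, hWr'⟩ := exists_word ω l n hspan ((((ω : F) ^ 2) ^ l) ^ n)
  obtain ⟨Wh, hWh, hWh'⟩ := exists_word ω l n hspan ((ω : F) ^ 2)
  obtain ⟨A, hA, hA'⟩ := exists_word ω l n hspan (ω : F)
  obtain ⟨B, hB, hB'⟩ := exists_word ω l n hspan ((ω : F)⁻¹)
  obtain ⟨RA, hRA, hRA'⟩ : ∃ RA : FreeGroup (Fin 3), ev ω RA = 1 ∧ (3 ≤ n → ∃ k : ℕ,
      RA = gH ^ k * gU * (gH ^ k)⁻¹ * (gU * (gH ^ l * gU * (gH ^ l)⁻¹))⁻¹) := by
    by_cases h3 : 3 ≤ n
    · obtain ⟨k, hk⟩ := hk h3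
      refine ⟨_, ?_, fun _ => ⟨k, rfl⟩⟩
      rw [map_mul, map_inv, map_mul (ev ω) gU, ev_conj_pow, ev_conj_pow, ev_U, upperU_add, hk, add_comm,
        mul_inv_cancel]
    · exact ⟨1, map_one _, fun h => absurd h h3⟩
  let R1 : FreeGroup (Fin 3) := gU ^ p
  let R2 : FreeGroup (Fin 3) := (gH ^ l) ^ n * gU * ((gH ^ l) ^ n)⁻¹ * Wr⁻¹
  let R3 : FreeGroup (Fin 3) := gH * gU * gH⁻¹ * Wh⁻¹
  let R4 : FreeGroup (Fin 3) := gT * gH * gT⁻¹ * gH
  let R5 : FreeGroup (Fin 3) := gT * (gU * (gT * gU * gT⁻¹) * gU)⁻¹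
  let R6 : FreeGroup (Fin 3) := gH * (hWord A B)⁻¹
  let R7 : FreeGroup (Fin 3) := gU * (gH ^ l * gU * (gH ^ l)⁻¹) * gU⁻¹ * (gH ^ l * gU * (gH ^ l)⁻¹)⁻¹
  let L : List (FreeGroup (Fin 3)) := [R1, R2, R3, R4, R5, R6, R7, RA]
  let TS : FreeGroup (Fin 3) := gT * gT * gU * (gT * gT)⁻¹ * gU⁻¹
  let TP : FreeGroup (Fin 3) := gT * gT
  have hev : ∀ r ∈ L, ev ω r = 1 := by
    intro r hr
    simp only [L, List.mem_cons, List.not_mem_nil, or_false] at hr
    rcases hr with rfl | rfl | rfl | rfl | rfl | rfl | rfl | rfl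
    · rw [map_pow, ev_U, upper_pow]
    · simp only [R2, map_mul, map_inv, map_pow, ev_H, ev_U, hWr', ← pow_mul, diag_pow_conj, mul_one]
      simp only [mul_assoc, mul_inv_cancel]
    · simp only [R3, map_mul, map_inv, ev_H, ev_U, hWh', diag_conj, mul_one, mul_inv_cancel]
    · simp only [R4, map_mul, map_inv, ev_H, ev_T, wOne_diag, inv_mul_cancel]
    · rw [map_mul, map_inv, ev_braid, ev_T, mul_inv_cancel]
    · rw [map_mul, map_inv, ev_hWord ω hA' hB', ev_H, mul_inv_cancel]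
    · simp only [R7, map_mul, map_inv, map_pow, ev_H, ev_U, diag_pow_conj, upperU_inv, upperU_add]
      rw [show (1 : F) + ((ω : F) ^ 2) ^ l * 1 + -1 + -(((ω : F) ^ 2) ^ l * 1) = 0 by ring]
      exact (upperHom F).map_one
    · exact hRA
  have hTS : ev ω TS = 1 := by
    simp only [TS, map_mul, map_inv, ev_T, ev_U, wOne_sq]
    rw [mul_inv_eq_one, mul_inv_eq_iff_eq_mul]
    refine ext2 ?_ ?_ ?_ ?_ <;> simp [mul00, mul01, mul10, mul11]
  let relS : Finset (FreeGroup (Fin 3)) := (TS :: L).toFinset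
  let relP : Finset (FreeGroup (Fin 3)) := (TP :: L).toFinset
  have hcardS : relS.card ≤ 9 := (List.toFinset_card_le _).trans le_rfl
  have hcardP : relP.card ≤ 9 := (List.toFinset_card_le _).trans le_rfl
  let GS := PresentedGroup (↑relS : Set (FreeGroup (Fin 3)))
  let fS : FreeGroup (Fin 3) →* GS := PresentedGroup.mk _
  let π : GS →* Matrix.SpecialLinearGroup (Fin 2) F := PresentedGroup.toGroup (f := gens ω) (fun r hr => by
    simp only [relS, List.coe_toFinset, Set.mem_setOf_eq, List.mem_cons] at hr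
    rcases hr with rfl | hr
    · exact hTS
    · exact hev r (by simpa [L] using hr))
  have hπf : ∀ a, π (fS a) = ev ω a := fun a => rfl
  have hrel : ∀ r ∈ TS :: L, fS r = 1 := fun r hr => PresentedGroup.one_of_mem (by simpa [relS] using hr)
  have hbij : Function.Bijective π := by
    have heq : ∀ {a b : FreeGroup (Fin 3)}, a * b⁻¹ ∈ TS :: L → fS a = fS b := fun {a b} h => by
      have := hrel _ h
      rwa [map_mul, map_inv, mul_inv_eq_one] at this
    have r1 : fS gU ^ p = 1 := by rw [← map_pow]; exact hrel R1 (by simp [L])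
    have h7 : Commute (fS gU) (fS gH ^ l * fS gU * (fS gH ^ l)⁻¹) := by
      have := hrel R7 (by simp [L])
      simp only [R7, map_mul, map_inv, map_pow] at this
      rw [mul_inv_eq_one, mul_inv_eq_iff_eq_mul] at this
      exact this
    have hcomm : ∀ i, i < n → Commute (fS gU) ((fS gH ^ l) ^ i * fS gU * ((fS gH ^ l) ^ i)⁻¹) := by
      intro i hi
      match i with
      | 0 => simp
      | 1 => simpa using h7
      | j + 2 =>
        obtain ⟨k, hk'⟩ := hRA' (by omega)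
        have h8 := hrel RA (by simp [L])
        rw [hk', map_mul, map_inv, mul_inv_eq_one] at h8
        simp only [map_mul, map_inv, map_pow] at h8
        exact commute_conj ((Commute.refl (fS gH)).pow_pow k l) h7 h8 (j + 2)
    refine bijective_of_rels p ω hω l n hn hcard hspan fS (PresentedGroup.mk_surjective _) π hπf hWr hWh hA hB
      hA' hB' r1 hcomm ?_ ?_ ?_ ?_ ?_ ?_
    · have := heq (a := (gH ^ l) ^ n * gU * ((gH ^ l) ^ n)⁻¹) (b := Wr) (by simp [L, R2])
      simpa only [map_mul, map_inv, map_pow] using this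
    · have := heq (a := gH * gU * gH⁻¹) (b := Wh) (by simp [L, R3])
      simpa only [map_mul, map_inv] using this
    · have := hrel R4 (by simp [L])
      simp only [R4, map_mul, map_inv] at this
      exact eq_inv_of_mul_eq_one_left this
    · have := heq (a := gT) (b := gU * (gT * gU * gT⁻¹) * gU) (by simp [L, R5])
      simpa only [map_mul, map_inv] using this
    · exact heq (a := gH) (b := hWord A B) (by simp [L, R6])
    · have := hrel TS (by simp)
      simp only [TS, map_mul, map_inv] at this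
      rwa [mul_inv_eq_one] at this
  let eS := MulEquiv.ofBijective π hbij
  refine ⟨⟨relS, hcardS, ⟨eS⟩⟩, relP, hcardP, ?_⟩
  let GP := PresentedGroup (↑relP : Set (FreeGroup (Fin 3)))
  let fP : FreeGroup (Fin 3) →* GP := PresentedGroup.mk _
  have hrelP : ∀ r ∈ TP :: L, fP r = 1 := fun r hr => PresentedGroup.one_of_mem (by simpa [relP] using hr)
  have hliftP : ∀ a, FreeGroup.lift (fun i => fP (FreeGroup.of i)) a = fP a := fun a => by
    rw [show FreeGroup.lift (fun i => fP (FreeGroup.of i)) = fP from FreeGroup.ext_hom _ _ fun i => by simp]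
  let θ : GS →* GP := PresentedGroup.toGroup (f := fun i => fP (FreeGroup.of i)) (fun r hr => by
    simp only [relS, List.coe_toFinset, Set.mem_setOf_eq, List.mem_cons] at hr
    rw [hliftP]
    rcases hr with rfl | hr
    · have := hrelP TP (by simp)
      simp only [TS, map_mul, map_inv]
      rw [show fP gT * fP gT = 1 by rw [← map_mul]; exact this]
      simp
    · exact hrelP r (List.mem_cons_of_mem _ (by simpa [L] using hr)))
  let ψ : Matrix.SpecialLinearGroup (Fin 2) F →* GP := θ.comp eS.symm.toMonoidHom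
  have hψev : ∀ a, ψ (ev ω a) = fP a := fun a => by
    show θ (eS.symm (π (fS a))) = _
    rw [show π (fS a) = eS (fS a) from rfl, MulEquiv.symm_apply_apply]
    exact hliftP a
  have hψs : Function.Surjective ψ := fun y => by
    obtain ⟨a, rfl⟩ := PresentedGroup.mk_surjective _ y
    exact ⟨ev ω a, hψev a⟩
  let φ : GP →* Matrix.ProjectiveSpecialLinearGroup (Fin 2) F :=
    PresentedGroup.toGroup (f := fun i => proj (gens ω i)) (fun r hr => by
      rw [show FreeGroup.lift (fun i => proj (gens ω i)) = proj.comp (ev ω) from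
        FreeGroup.ext_hom _ _ fun i => by simp [ev]]
      simp only [relP, List.coe_toFinset, Set.mem_setOf_eq, List.mem_cons] at hr
      rcases hr with rfl | hr
      · rw [MonoidHom.comp_apply, proj_eq_one_iff]
        right
        simp only [TP, map_mul, ev_T, wOne_sq]
      · rw [MonoidHom.comp_apply, hev r (by simpa [L] using hr), map_one])
  have hφψ : ∀ M, φ (ψ M) = proj M := by
    intro M
    obtain ⟨a, rfl⟩ : ∃ a, ev ω a = M := by
      obtain ⟨g, rfl⟩ := hbij.2 M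
      obtain ⟨a, rfl⟩ := PresentedGroup.mk_surjective _ g
      exact ⟨a, rfl⟩
    rw [hψev]
    show FreeGroup.lift (fun i => proj (gens ω i)) a = _
    rw [show FreeGroup.lift (fun i => proj (gens ω i)) = proj.comp (ev ω) from
        FreeGroup.ext_hom _ _ fun i => by simp [ev]]
    rfl
  refine ⟨MulEquiv.ofBijective φ ⟨(injective_iff_map_eq_one φ).mpr fun y hy => ?_, fun z => ?_⟩⟩
  · obtain ⟨M, rfl⟩ := hψs y
    rw [hφψ, proj_eq_one_iff] at hy
    rcases hy with rfl | rfl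
    · exact map_one _
    · rw [← wOne_sq, ← ev_T ω, ← map_mul (ev ω), hψev]
      exact hrelP TP (by simp)
  · obtain ⟨M, rfl⟩ := proj_surjective z
    exact ⟨ψ M, hφψ M⟩

/-- The five relations in characteristic two. -/
theorem five [CharP F 2] :
    ∃ rels : Finset (FreeGroup (Fin 3)), rels.card ≤ 5 ∧
      Nonempty (PresentedGroup (↑rels : Set (FreeGroup (Fin 3))) ≃* Matrix.ProjectiveSpecialLinearGroup (Fin 2) F) := by
  classical
  have : Fact (Nat.Prime 2) := ⟨Nat.prime_two⟩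
  obtain ⟨ω, hω⟩ := exists_primitive (F := F)
  have hsq : ∀ z : F, ∃ y : F, y ^ 2 = z := fun z => by
    obtain ⟨y, hy⟩ := (PerfectRing.bijective_frobenius (R := F) (p := 2)).2 z
    exact ⟨y, hy⟩
  have hlog : ∀ z : F, z ≠ 0 → ∃ j : ℕ, ((ω : F) ^ 2) ^ j = z := fun z hz => by
    obtain ⟨y, hy⟩ := hsq z
    have hy0 : y ≠ 0 := fun e => hz (by rw [← hy, e]; simp)
    obtain ⟨j, hj⟩ := mem_zpowers_iff_mem_range_orderOf.mp (hω (Units.mk0 y hy0)) |> Finset.mem_image.mp
    exact ⟨j, by rw [← pow_mul, mul_comm, pow_mul, ← Units.val_pow_eq_pow_val, hj.2, ← hy]; rfl⟩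
  have hgen : Subring.closure ({((ω : F) ^ 2) ^ 1} : Set F) = ⊤ := by
    refine eq_top_iff.mpr fun z _ => ?_
    rcases eq_or_ne z 0 with rfl | hz
    · exact zero_mem _
    · obtain ⟨j, rfl⟩ := hlog z hz
      exact pow_mem (Subring.subset_closure (by simp)) j
  obtain ⟨n, hn, hcard, hspan⟩ := exists_span 2 _ hgen
  obtain ⟨Wr, hWr, hWr'⟩ := exists_word ω 1 n hspan ((((ω : F) ^ 2) ^ 1) ^ n)
  obtain ⟨A, hA, hA'⟩ := exists_word ω 1 n hspan (ω : F)
  obtain ⟨B, hB, hB'⟩ := exists_word ω 1 n hspan ((ω : F)⁻¹)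
  obtain ⟨RA, hRA, hRA'⟩ : ∃ RA : FreeGroup (Fin 3), ev ω RA = 1 ∧ (2 ≤ n → ∃ k : ℕ,
      RA = gH ^ k * gU * (gH ^ k)⁻¹ * (gU * (gH ^ 1 * gU * (gH ^ 1)⁻¹))⁻¹) := by
    by_cases h1 : (ω : F) ^ 2 + 1 = 0
    · refine ⟨1, map_one _, fun h2n => ?_⟩
      exfalso
      have hall : ∀ z : F, z = 0 ∨ z = 1 := fun z => by
        rcases eq_or_ne z 0 with hz | hz
        · exact Or.inl hz
        · obtain ⟨j, rfl⟩ := hlog z hz
          exact Or.inr (by rw [show (ω : F) ^ 2 = 1 by rw [← CharTwo.add_eq_zero]; exact h1, one_pow])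
      have hsub : (Finset.univ : Finset F) ⊆ {0, 1} := fun z _ => by simpa using hall z
      have h4 := (Nat.pow_le_pow_right two_pos h2n).trans (hcard.trans ((Finset.card_le_card hsub).trans Finset.card_le_two))
      norm_num at h4
    · obtain ⟨k, hk⟩ := hlog _ h1
      refine ⟨_, ?_, fun _ => ⟨k, rfl⟩⟩
      rw [map_mul, map_inv, map_mul (ev ω) gU, ev_conj_pow, ev_conj_pow, ev_U, upperU_add, hk, pow_one, add_comm,
        mul_inv_cancel]
  let R1 : FreeGroup (Fin 3) := gU ^ 2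
  let R2 : FreeGroup (Fin 3) := (gH ^ 1) ^ n * gU * ((gH ^ 1) ^ n)⁻¹ * Wr⁻¹
  let R5 : FreeGroup (Fin 3) := gT * (gU * (gT * gU * gT⁻¹) * gU)⁻¹
  let R6 : FreeGroup (Fin 3) := gH * (hWord A B)⁻¹
  let L : List (FreeGroup (Fin 3)) := [R1, R2, R5, R6, RA]
  have hev : ∀ r ∈ L, ev ω r = 1 := by
    intro r hr
    simp only [L, List.mem_cons, List.not_mem_nil, or_false] at hr
    rcases hr with rfl | rfl | rfl | rfl | rfl
    · rw [map_pow, ev_U, upper_pow]
    · simp only [R2, map_mul, map_inv, map_pow, ev_H, ev_U, hWr', ← pow_mul, diag_pow_conj, mul_one]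
      simp
    · rw [map_mul, map_inv, ev_braid, ev_T, mul_inv_cancel]
    · rw [map_mul, map_inv, ev_hWord ω hA' hB', ev_H, mul_inv_cancel]
    · exact hRA
  refine ⟨L.toFinset, (List.toFinset_card_le _).trans le_rfl, ?_⟩
  let G := PresentedGroup (↑L.toFinset : Set (FreeGroup (Fin 3)))
  let f : FreeGroup (Fin 3) →* G := PresentedGroup.mk _
  let π : G →* Matrix.SpecialLinearGroup (Fin 2) F := PresentedGroup.toGroup (f := gens ω) (fun r hr => by
    simp only [List.coe_toFinset, Set.mem_setOf_eq] at hr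
    exact hev r hr)
  have hrel : ∀ r ∈ L, f r = 1 := fun r hr => PresentedGroup.one_of_mem (by simpa using hr)
  have heq : ∀ {a b : FreeGroup (Fin 3)}, a * b⁻¹ ∈ L → f a = f b := fun {a b} h => by
    have := hrel _ h
    rwa [map_mul, map_inv, mul_inv_eq_one] at this
  set u := f gU with hu
  set h := f gH with hh
  set t := f gT with ht
  have r1 : u ^ 2 = 1 := by rw [hu, ← map_pow]; exact hrel R1 (by simp [L])
  have hcomm : ∀ i, i < n → Commute u ((h ^ 1) ^ i * u * ((h ^ 1) ^ i)⁻¹) := by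
    intro i hi
    rcases Nat.eq_zero_or_pos i with rfl | hi0
    · simp
    obtain ⟨k, hk'⟩ := hRA' (by omega)
    have h8 := hrel RA (by simp [L])
    rw [hk', map_mul, map_inv, mul_inv_eq_one] at h8
    simp only [map_mul, map_inv, map_pow, ← hu, ← hh] at h8
    refine commute_conj ((Commute.refl h).pow_pow k 1) ?_ h8 i
    have hsq' : ∀ z : G, z ^ 2 = 1 → z⁻¹ = z := fun z hz => inv_eq_of_mul_eq_one_right (by rw [← sq, hz])
    set v := h ^ 1 * u * (h ^ 1)⁻¹ with hv
    have hv2 : v ^ 2 = 1 := by rw [hv, conj_pow, r1, mul_one, mul_inv_cancel]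
    have huv : (u * v) ^ 2 = 1 := by rw [← h8, conj_pow, r1, mul_one, mul_inv_cancel]
    have := hsq' _ huv
    rw [mul_inv_rev, hsq' _ r1, hsq' _ hv2] at this
    exact this.symm
  have rbraid : t = u * (t * u * t⁻¹) * u := by
    have := heq (a := gT) (b := gU * (gT * gU * gT⁻¹) * gU) (by simp [L, R5])
    simpa only [map_mul, map_inv, ← hu, ← ht] using this
  have huu : u * u = 1 := by rw [← sq, r1]
  have tt : t * t = 1 := by
    nth_rewrite 1 [rbraid]
    nth_rewrite 3 [rbraid]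
    calc u * (t * u * t⁻¹) * u * (u * (t * u * t⁻¹) * u)
        = u * (t * u * t⁻¹) * (u * u) * (t * u * t⁻¹) * u := by group
      _ = u * (t * (u * u) * t⁻¹) * u := by nth_rewrite 1 [huu]; group
      _ = 1 := by rw [huu]; simp [huu]
  have hmemU : ∀ W ∈ Uw 1 n, f W * f W = 1 := by
    intro W hW
    have hle : Uw 1 n ≤ (Subgroup.closure (Set.range fun i : Fin n => (h ^ 1) ^ (i : ℕ) * u * ((h ^ 1) ^ (i : ℕ))⁻¹)).comap f := by
      refine (Subgroup.closure_le _).mpr ?_
      rintro _ ⟨i, rfl⟩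
      refine Subgroup.subset_closure ⟨i, ?_⟩
      simp [hu, hh, map_pow]
    have hU := hle hW
    rw [Subgroup.mem_comap] at hU
    have : IsMulCommutative (Subgroup.closure (Set.range fun i : Fin n => (h ^ 1) ^ (i : ℕ) * u * ((h ^ 1) ^ (i : ℕ))⁻¹)) :=
      Subgroup.isMulCommutative_closure (by
        rintro _ ⟨i, rfl⟩ _ ⟨j, rfl⟩
        exact (commute_all hcomm i.2 j.2).eq)
    generalize f W = z at hU
    induction hU using Subgroup.closure_induction with
    | mem y hy =>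
      obtain ⟨i, rfl⟩ := hy
      rw [← sq, conj_pow, r1, mul_one, mul_inv_cancel]
    | one => rw [mul_one]
    | mul a b ha hb ha' hb' =>
      have hc : a * b = b * a := congrArg Subtype.val
        (IsMulCommutative.is_comm.comm (⟨a, ha⟩ : Subgroup.closure _) ⟨b, hb⟩)
      calc a * b * (a * b) = a * (b * a) * b := by group
        _ = (a * a) * (b * b) := by rw [← hc]; group
        _ = 1 := by rw [ha', hb', one_mul]
    | inv a _ ha => rw [← mul_inv_rev, ha, inv_one]
  have rdef : h = f (hWord A B) := by rw [hh]; exact heq (a := gH) (b := hWord A B) (by simp [L, R6])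
  have rtht : t * h * t⁻¹ = h⁻¹ := by
    have ht' : t⁻¹ = t := inv_eq_of_mul_eq_one_right tt
    have hA2 := hmemU A hA
    have hB2 := hmemU B hB
    set a := f A
    set c := f B
    have e : h = a * (t * c * t⁻¹) * a * t⁻¹ := by rw [rdef]; simp [hWord, a, c, ht]
    have hai : a⁻¹ = a := inv_eq_of_mul_eq_one_right hA2
    have hci : c⁻¹ = c := inv_eq_of_mul_eq_one_right hB2
    have hrev : ∀ x y : G, (x * y)⁻¹ = y⁻¹ * x⁻¹ := fun x y => mul_inv_rev x y
    have hinv : ∀ x : G, x⁻¹⁻¹ = x := fun x => inv_inv x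
    rw [e, show (a * (t * c * t⁻¹) * a * t⁻¹)⁻¹ = t * a⁻¹ * (t * c⁻¹ * t⁻¹) * a⁻¹ by
      simp [mul_assoc, hrev, hinv], hai, hci]
    calc t * (a * (t * c * t⁻¹) * a * t⁻¹) * t⁻¹ = t * a * (t * c * t⁻¹) * a * (t * t)⁻¹ := by simp [mul_assoc, hrev]
      _ = _ := by rw [tt, inv_one, mul_one]
  have rh : h * u * h⁻¹ ∈ (Uw 1 n).map f := by
    rcases Nat.lt_or_ge 1 n with h1 | h1
    · exact ⟨gH * gU * gH⁻¹, Subgroup.subset_closure ⟨⟨1, h1⟩, by simp⟩, by simp [hh, hu]⟩
    · refine ⟨Wr, hWr, ?_⟩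
      have := heq (a := (gH ^ 1) ^ n * gU * ((gH ^ 1) ^ n)⁻¹) (b := Wr) (by simp [L, R2])
      rw [← this, show n = 1 by omega]
      simp [hh, hu]
  obtain ⟨Wh, hWh, hWh'⟩ := rh
  have hbij : Function.Bijective π := by
    refine bijective_of_rels 2 ω hω 1 n hn hcard hspan f (PresentedGroup.mk_surjective _) π (fun a => rfl) hWr hWh
      hA hB hA' hB' r1 hcomm ?_ hWh'.symm rtht rbraid rdef (by rw [← ht, tt]; simp)
    have := heq (a := (gH ^ 1) ^ n * gU * ((gH ^ 1) ^ n)⁻¹) (b := Wr) (by simp [L, R2])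
    simpa only [map_mul, map_inv, map_pow] using this
  refine ⟨MulEquiv.ofBijective (proj.comp π) ⟨(injective_iff_map_eq_one _).mpr fun y hy => ?_,
    proj_surjective.comp hbij.2⟩⟩
  rw [MonoidHom.comp_apply, proj_eq_one_iff, neg_one_eq_one (CharTwo.two_eq_zero (R := F)), or_self] at hy
  exact hbij.1 (hy.trans (map_one π).symm)

end CfsgLib.SL2Pres.Short
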