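import Cfsg.Agent.SL2Pres.Unipotent
set_option autoImplicit false

/-!
Short presentations of `SL₂(F)`: groups with a torus generator and a Weyl element.
-/

namespace CfsgLib.SL2Pres.Short

open CfsgLib.SL2

variable {F : Type*} [Field F]

/-- `w(1)`. -/
def wOne (F : Type*) [Field F] : Matrix.SpecialLinearGroup (Fin 2) F := mk2 0 1 (-1) 0 (by ring)

theorem w_one_conj (v : F) : wOne F * upperU v * (wOne F)⁻¹ = lowerU (-v) := by
  rw [mul_inv_eq_iff_eq_mul]
  refine ext2 ?_ ?_ ?_ ?_ <;> simp [wOne, mul00, mul01, mul10, mul11]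

theorem diag_conj (d : Fˣ) (v : F) : diagT d * upperU v * (diagT d)⁻¹ = upperU ((d : F) ^ 2 * v) := by
  rw [mul_inv_eq_iff_eq_mul]
  refine ext2 ?_ ?_ ?_ ?_ <;> simp [mul00, mul01, mul10, mul11]
  field_simp

theorem diag_mul (c d : Fˣ) : diagT c * diagT d = diagT (c * d) := by
  refine ext2 ?_ ?_ ?_ ?_ <;> simp [mul00, mul01, mul10, mul11, mul_comm]

/-- The torus as a homomorphism. -/
def diagHom (F : Type*) [Field F] : Fˣ →* Matrix.SpecialLinearGroup (Fin 2) F where
  toFun := diagT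
  map_one' := ext2 (by simp) (by simp) (by simp) (by simp)
  map_mul' a b := (diag_mul a b).symm

theorem w_prod (c : Fˣ) :
    upperU (c : F) * (wOne F * upperU ((c : F)⁻¹) * (wOne F)⁻¹) * upperU (c : F) * (wOne F)⁻¹ = diagT c := by
  rw [w_one_conj, mul_inv_eq_iff_eq_mul]
  refine ext2 ?_ ?_ ?_ ?_ <;> simp [wOne, mul00, mul01, mul10, mul11]

/-- A group with the data of the short presentation maps isomorphically to `SL₂(F)`. -/
theorem bijective [Fintype F] {G : Type*} [Group G] (π : G →* Matrix.SpecialLinearGroup (Fin 2) F) (h t : G) (x : F → G)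
    (ω : Fˣ) (hω : ∀ z : Fˣ, z ∈ Subgroup.zpowers ω)
    (hadd : ∀ v w, x (v + w) = x v * x w) (hπx : ∀ v, π (x v) = upperU v) (hπt : π t = wOne F)
    (hπh : π h = diagT ω) (hgen : Subgroup.closure {x 1, h, t} = ⊤)
    (hhx : ∀ v, h * x v * h⁻¹ = x ((ω : F) ^ 2 * v)) (htx : ∀ v, t * t * x v * (t * t)⁻¹ = x v)
    (htht : t * h * t⁻¹ = h⁻¹) (hbraid : t = x 1 * (t * x 1 * t⁻¹) * x 1)
    (hhdef : h = x (ω : F) * (t * x ((ω : F)⁻¹) * t⁻¹) * x (ω : F) * t⁻¹) :
    Function.Bijective π := by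
  classical
  let g : Bool → F → G := fun b v => bif b then x v else t * x (-v) * t⁻¹
  have hg : ∀ v, g true v = x v := fun v => rfl
  have hg' : ∀ v, g false v = t * x (-v) * t⁻¹ := fun v => rfl
  have x0 : x 0 = 1 := by
    have := hadd 0 0
    rw [add_zero] at this
    exact left_eq_mul.mp this
  have xneg : ∀ v, x (-v) = (x v)⁻¹ := fun v =>
    eq_inv_of_mul_eq_one_left (by rw [← hadd, neg_add_cancel, x0])
  have hht : h * t = t * h⁻¹ := by
    have e : h⁻¹ * t = t * h := by rw [← htht]; group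
    calc h * t = h * (t * h) * h⁻¹ := by group
      _ = h * (h⁻¹ * t) * h⁻¹ := by rw [e]
      _ = _ := by group
  have hhi : ∀ v, h⁻¹ * x v * h = x (((ω : F) ^ 2)⁻¹ * v) := fun v => by
    have e := hhx (((ω : F) ^ 2)⁻¹ * v)
    rw [← mul_assoc ((ω : F) ^ 2), mul_inv_cancel₀ (pow_ne_zero _ ω.ne_zero), one_mul] at e
    rw [← e]; group
  have hhy : ∀ v, h * g false v * h⁻¹ = g false (((ω : F) ^ 2)⁻¹ * v) := fun v => by
    rw [hg', hg', neg_mul_eq_mul_neg]
    calc h * (t * x (-v) * t⁻¹) * h⁻¹ = (h * t) * x (-v) * (h * t)⁻¹ := by group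
      _ = t * (h⁻¹ * x (-v) * h) * t⁻¹ := by rw [hht]; group
      _ = _ := by rw [hhi]
  have hpow : ∀ (n : ℕ) (v : F), h ^ n * g false v * (h ^ n)⁻¹ = g false ((((ω : F) ^ n) ^ 2)⁻¹ * v) ∧
      h ^ n * x v * (h ^ n)⁻¹ = x (((ω : F) ^ n) ^ 2 * v) := by
    intro n
    induction n with
    | zero => intro v; simp
    | succ n ih =>
      intro v
      have e : ∀ z, h ^ (n + 1) * z * (h ^ (n + 1))⁻¹ = h * (h ^ n * z * (h ^ n)⁻¹) * h⁻¹ := fun z => by
        rw [pow_succ']; group
      rw [e, e, (ih v).1, (ih v).2, hhy, hhx]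
      constructor <;> congr 1 <;> field_simp <;> ring
  have hw1 : w g true 1 = t := by
    rw [w, Bool.not_true, hg, hg', inv_one, neg_neg]
    exact hbraid.symm
  have hwω : w g true (ω : F) = h * t := by
    rw [w, Bool.not_true, hg, hg', neg_neg]
    conv_rhs => rw [hhdef]
    rw [inv_mul_cancel_right]
  have hstep : ∀ s : F, h * w g true s * h⁻¹ = w g true ((ω : F) ^ 2 * s) := fun s => by
    simp only [w, Bool.not_true, hg]
    rw [show h * (x s * g false (-s⁻¹) * x s) * h⁻¹ = (h * x s * h⁻¹) * (h * g false (-s⁻¹) * h⁻¹) * (h * x s * h⁻¹)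
      by group, hhx, hhy]
    congr 3
    field_simp
  have hwpow : ∀ n : ℕ, w g true ((ω : F) ^ n) = h ^ n * t ∧ w g true ((ω : F) ^ (n + 1)) = h ^ (n + 1) * t := by
    intro n
    induction n with
    | zero => exact ⟨by simpa using hw1, by simpa using hwω⟩
    | succ n ih =>
      refine ⟨ih.2, ?_⟩
      rw [show (ω : F) ^ (n + 1 + 1) = (ω : F) ^ 2 * (ω : F) ^ n by rw [← pow_add]; congr 1; omega, ← hstep, ih.1]
      calc h * (h ^ n * t) * h⁻¹ = h * h ^ n * (t * h⁻¹) := by group
        _ = h * h ^ n * (h * t) := by rw [hht]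
        _ = _ := by rw [show n + 1 + 1 = n + 1 + 1 from rfl, pow_succ h (n + 1), pow_succ' h n]; group
  have hex : ∀ s : F, s ≠ 0 → ∃ n : ℕ, (ω : F) ^ n = s := fun s hs => by
    obtain ⟨k, hk⟩ := mem_zpowers_iff_mem_range_orderOf.mp (hω (Units.mk0 s hs)) |> Finset.mem_image.mp
    exact ⟨k, by rw [← Units.val_pow_eq_pow_val, hk.2]; rfl⟩
  have hperiod : h ^ orderOf ω = 1 := by
    have e := (hwpow (orderOf ω)).1
    rw [← Units.val_pow_eq_pow_val, pow_orderOf_eq_one, Units.val_one, hw1] at e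
    exact mul_eq_right.mp e.symm
  have htty : ∀ v, t * g false v * t⁻¹ = x (-v) := fun v => by
    rw [hg']
    rw [show t * (t * x (-v) * t⁻¹) * t⁻¹ = t * t * x (-v) * (t * t)⁻¹ by group, htx]
  have D : Data g π := by
    refine { add := ?_, rel := ?_, gen := ?_, mapT := hπx, mapF := ?_ }
    · intro b v w
      cases b
      · rw [hg', hg', hg', neg_add, hadd]; group
      · exact (hadd v w).symm
    · intro b s u hs
      cases b
      · obtain ⟨n, hn⟩ := hex (-s) (neg_ne_zero.mpr hs)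
        have e : w g false s = t * h ^ n := by
          have e1 : w g false s = t * w g true (-s) * t⁻¹ := by
            simp only [w, Bool.not_true, Bool.not_false, hg]
            rw [show t * (x (-s) * g false (-(-s)⁻¹) * x (-s)) * t⁻¹ =
              (t * x (-s) * t⁻¹) * (t * g false (-(-s)⁻¹) * t⁻¹) * (t * x (-s) * t⁻¹) by group, htty, ← hg']
            simp only [inv_neg, neg_neg]
          rw [e1, ← hn, (hwpow n).1]
          group
        rw [e, Bool.not_false, hg]
        rw [show t * h ^ n * g false u * (t * h ^ n)⁻¹ = t * (h ^ n * g false u * (h ^ n)⁻¹) * t⁻¹ by group,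
          (hpow n u).1, htty, hn]
        congr 1
        field_simp
      · obtain ⟨n, hn⟩ := hex s hs
        rw [← hn, (hwpow n).1, Bool.not_true, hg,
          show h ^ n * t * x u * (h ^ n * t)⁻¹ = h ^ n * (t * x (- -u) * t⁻¹) * (h ^ n)⁻¹ by rw [neg_neg]; group,
          ← hg', (hpow n _).1]
        congr 1
        field_simp
    · rw [eq_top_iff, ← hgen, Subgroup.closure_le]
      have hm : ∀ b v, g b v ∈ Subgroup.closure (Set.range fun p : Bool × F => g p.1 p.2) := fun b v =>
        Subgroup.subset_closure ⟨(b, v), rfl⟩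
      have hwm : ∀ s, w g true s ∈ Subgroup.closure (Set.range fun p : Bool × F => g p.1 p.2) := fun s =>
        mul_mem (mul_mem (hm _ _) (hm _ _)) (hm _ _)
      rintro z (rfl | rfl | rfl)
      · exact hm true 1
      · have := mul_mem (hwm (ω : F)) (inv_mem (hwm 1))
        rwa [hwω, hw1, mul_inv_cancel_right] at this
      · rw [← hw1]; exact hwm 1
    · intro v
      rw [hg', map_mul, map_mul, map_inv, hπt, hπx, w_one_conj, neg_neg]
  refine ⟨(injective_iff_map_eq_one π).mpr fun k hk => ?_, D.surjective⟩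
  have htor : torus g ≤ Subgroup.zpowers h := by
    rw [torus, Subgroup.closure_le]
    rintro _ ⟨s, hs, rfl⟩
    obtain ⟨n, hn⟩ := hex s hs
    obtain ⟨m, hm⟩ := hex (-1) (by simp)
    have h1 : w g true (-1) = t⁻¹ := by
      simp only [w, Bool.not_true, hg, hg']
      conv_rhs => rw [hbraid]
      simp only [inv_neg, inv_one, neg_neg, xneg]
      group
    rw [← hn, (hwpow n).1, h1, mul_inv_cancel_right]
    exact Subgroup.pow_mem _ (Subgroup.mem_zpowers h) n
  obtain ⟨j, rfl⟩ := Subgroup.mem_zpowers_iff.mp (htor (D.ker_le_torus hk))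
  rw [map_zpow, hπh, ← show diagHom F ω = diagT ω from rfl, ← map_zpow] at hk
  have hj : ω ^ j = 1 := by
    have := congrArg (fun M : Matrix.SpecialLinearGroup (Fin 2) F => M.1 0 0) hk
    simp [diagHom] at this
    exact Units.ext (by simpa using this)
  obtain ⟨l, rfl⟩ := orderOf_dvd_iff_zpow_eq_one.mpr hj
  rw [zpow_mul, zpow_natCast, hperiod, one_zpow]

end CfsgLib.SL2Pres.Short
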