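import Mathlib
set_option autoImplicit false

/-!
Generators of a finite field and spans of their powers.
-/

namespace CfsgLib.SL2Pres.Short

variable {F : Type*} [Field F] [Fintype F]

/-- Few powers of a field generator span the field. -/
theorem exists_span (p : ℕ) [Fact p.Prime] [CharP F p] (β : F) (hgen : Subring.closure ({β} : Set F) = ⊤) :
    ∃ n, 0 < n ∧ p ^ n ≤ Fintype.card F ∧
      AddSubgroup.closure (Set.range fun i : Fin n => β ^ (i : ℕ)) = ⊤ := by
  classical
  let S : ℕ → AddSubgroup F := fun n => AddSubgroup.closure (Set.range fun i : Fin n => β ^ (i : ℕ))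
  have hmono : ∀ m, S m ≤ S (m + 1) := fun m => AddSubgroup.closure_mono fun _ ⟨i, hi⟩ => ⟨i.castSucc, hi⟩
  have hbound : ∀ m, (∀ i < m, β ^ i ∉ S i) → p ^ m ≤ Nat.card (S m) := by
    intro m hm
    induction m with
    | zero => exact Nat.one_le_iff_ne_zero.mpr Nat.card_pos.ne'
    | succ m ih =>
      have h1 := ih fun i hi => hm i (by omega)
      have hlt : Nat.card (S m) < Nat.card (S (m + 1)) := by
        refine lt_of_le_of_ne (AddSubgroup.card_le_of_le (hmono m)) fun e => hm m (Nat.lt_succ_self m) ?_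
        rw [AddSubgroup.eq_of_le_of_card_ge (hmono m) e.ge]
        exact AddSubgroup.subset_closure ⟨Fin.last m, rfl⟩
      have hdvd : ∀ k, ∃ e, Nat.card (S k) = p ^ e := by
        intro k
        obtain ⟨f, -, hf⟩ := FiniteField.card F p
        have hd := AddSubgroup.card_addSubgroup_dvd_card (S k)
        rw [Nat.card_eq_fintype_card (α := F), hf] at hd
        obtain ⟨e, -, he⟩ := (Nat.dvd_prime_pow Fact.out).mp hd
        exact ⟨e, he⟩
      obtain ⟨e, he⟩ := hdvd m
      obtain ⟨e', he'⟩ := hdvd (m + 1)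
      rw [he, he', Nat.pow_lt_pow_iff_right (Fact.out : p.Prime).one_lt] at hlt
      rw [he] at h1
      rw [he']
      exact Nat.pow_le_pow_right (Fact.out : p.Prime).pos
        (by have := (Nat.pow_le_pow_iff_right (Fact.out : p.Prime).one_lt).mp h1; omega)
  have hex : ∃ m, β ^ m ∈ S m := by
    by_contra hno
    push Not at hno
    have h1 := hbound (Fintype.card F) fun i _ => hno i
    have h2 := AddSubgroup.card_le_card_addGroup (S (Fintype.card F))
    have h3 := Nat.lt_pow_self (Fact.out : p.Prime).one_lt (n := Fintype.card F)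
    rw [Nat.card_eq_fintype_card (α := F)] at h2
    omega
  set n := Nat.find hex with hn
  have hn0 : 0 < n := by
    refine Nat.pos_of_ne_zero fun h0 => ?_
    have h := Nat.find_spec hex
    rw [← hn, h0, pow_zero] at h
    simp [S] at h
  refine ⟨n, hn0, ?_, ?_⟩
  · refine (hbound n fun i hi => Nat.find_min hex hi).trans ?_
    have h2 := AddSubgroup.card_le_card_addGroup (S n)
    rwa [Nat.card_eq_fintype_card (α := F)] at h2
  · show S n = ⊤
    have hβ : ∀ y ∈ S n, β * y ∈ S n := by
      intro y hy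
      have hle : S n ≤ (S n).comap (AddMonoidHom.mulLeft β) := by
        refine (AddSubgroup.closure_le _).mpr ?_
        rintro _ ⟨i, rfl⟩
        show β * β ^ (i : ℕ) ∈ S n
        rw [← pow_succ']
        rcases Nat.lt_or_ge (i.1 + 1) n with h | h
        · exact AddSubgroup.subset_closure ⟨⟨i.1 + 1, h⟩, rfl⟩
        · rw [show i.1 + 1 = n by omega]; exact Nat.find_spec hex
      exact hle hy
    let R : Subring F :=
      { carrier := {x | ∀ y ∈ S n, x * y ∈ S n}
        mul_mem' := fun {a b} ha hb y hy => by rw [mul_assoc]; exact ha _ (hb y hy)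
        one_mem' := fun y hy => by rwa [one_mul]
        add_mem' := fun {a b} ha hb y hy => by rw [add_mul]; exact add_mem (ha y hy) (hb y hy)
        zero_mem' := fun y hy => by rw [zero_mul]; exact zero_mem _
        neg_mem' := fun {a} ha y hy => by rw [neg_mul]; exact neg_mem (ha y hy) }
    have hR : Subring.closure ({β} : Set F) ≤ R := Subring.closure_le.mpr (Set.singleton_subset_iff.mpr hβ)
    rw [hgen] at hR
    refine eq_top_iff.mpr fun z _ => ?_
    have h1 := hR (Subring.mem_top z) 1 (AddSubgroup.subset_closure ⟨⟨0, hn0⟩, by simp⟩)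
    rwa [mul_one] at h1

/-- A square generator `β` of the field with `β + 1` a square, when there is room. -/
theorem exists_square_generator (p : ℕ) [Fact p.Prime] [CharP F p] (hodd : Odd (Fintype.card F)) (ω : Fˣ) (hω : ∀ z : Fˣ, z ∈ Subgroup.zpowers ω) :
    ∃ l : ℕ, Subring.closure ({(((ω : F) ^ 2) ^ l)} : Set F) = ⊤ ∧
      (9 < Fintype.card F → ∃ k : ℕ, ((ω : F) ^ 2) ^ k = ((ω : F) ^ 2) ^ l + 1) := by
  classical
  set q := Fintype.card F with hq
  have hq2 : 2 ≤ q := Fintype.one_lt_card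
  have hord : orderOf (ω : F) = q - 1 := by
    rw [orderOf_units, orderOf_eq_card_of_forall_mem_zpowers hω, Nat.card_eq_fintype_card, Fintype.card_units]
  have hpowd : ∀ m : ℕ, (ω : F) ^ m = 1 → q - 1 ∣ m := fun m hm => hord ▸ orderOf_dvd_of_pow_eq_one hm
  -- a proper subring has few elements, all fixed by a power map
  have hsub : ∀ β : F, Subring.closure ({β} : Set F) ≠ ⊤ →
      ∃ Q f, Q = p ^ f ∧ 3 ≤ Q ∧ Q * Q ≤ q ∧ β ^ Q = β := by
    intro β hne
    set K := Subring.closure ({β} : Set F) with hK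
    let _ : Fintype K := Fintype.ofFinite _
    let _ : Field K := Fintype.fieldOfDomain K
    have hd := AddSubgroup.card_addSubgroup_dvd_card K.toAddSubgroup
    have hKc : Nat.card K.toAddSubgroup = Fintype.card K := by rw [← Nat.card_eq_fintype_card]; rfl
    obtain ⟨fF, -, hfF⟩ := FiniteField.card F p
    rw [hKc, Nat.card_eq_fintype_card (α := F), hfF] at hd
    obtain ⟨f, -, hf⟩ := (Nat.dvd_prime_pow Fact.out).mp hd
    refine ⟨Fintype.card K, f, hf, ?_⟩
    have e := Module.card_eq_pow_finrank (K := K) (V := F)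
    have he : 2 ≤ Module.finrank K F := by
      by_contra hlt
      push Not at hlt
      have hpos : 0 < Module.finrank K F := Module.finrank_pos
      rw [show Module.finrank K F = 1 by omega, pow_one] at e
      refine hne (eq_top_iff.mpr fun z _ => ?_)
      obtain ⟨y, hy⟩ := ((Fintype.bijective_iff_injective_and_card (fun y : K => (y : F))).mpr
        ⟨Subtype.val_injective, e.symm⟩).2 z
      exact hy ▸ y.2
    have hoddK : Odd (Fintype.card K) := by
      rw [hq, e, Nat.odd_pow_iff (by omega)] at hodd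
      exact hodd
    have h3 : 3 ≤ Fintype.card K := by
      have h1 : 1 < Fintype.card K := Fintype.one_lt_card
      rcases hoddK with ⟨r, hr⟩
      omega
    have hfix : ∀ y : K, (y : F) ^ Fintype.card K = y := fun y => by
      have := congrArg Subtype.val (FiniteField.pow_card y)
      simpa using this
    refine ⟨h3, ?_, hfix ⟨β, Subring.subset_closure rfl⟩⟩
    rw [hq, e, ← pow_two]
    exact Nat.pow_le_pow_right (by omega) he
  rcases Nat.lt_or_ge 9 q with hbig | hsmall
  · have h2 : (2 : F) ≠ 0 := fun h => by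
      have := FiniteField.even_card_of_char_two (CharP.ringChar_of_prime_eq_zero (R := F) Nat.prime_two (by exact_mod_cast h))
      rcases hodd with ⟨r, hr⟩
      omega
    have hs0 : (ω : F) ≠ 0 := ω.ne_zero
    set γ := ((ω : F) - (ω : F)⁻¹) / 2 with hγ
    set δ := ((ω : F) + (ω : F)⁻¹) / 2 with hδ
    have hsq : γ ^ 2 + 1 = δ ^ 2 := by rw [hγ, hδ]; field_simp; ring
    have hγ0 : γ ≠ 0 := by
      intro e
      have : (ω : F) ^ 2 = 1 := by
        rw [hγ, div_eq_zero_iff, or_iff_left h2, sub_eq_zero] at e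
        rw [sq]; nth_rewrite 2 [e]; exact mul_inv_cancel₀ hs0
      have := Nat.le_of_dvd (by omega) (hpowd 2 this)
      omega
    have hδ0 : δ ≠ 0 := by
      intro e
      have : (ω : F) ^ 4 = 1 := by
        rw [hδ, div_eq_zero_iff, or_iff_left h2, add_eq_zero_iff_eq_neg] at e
        have e2 : (ω : F) ^ 2 = -1 := by rw [sq]; nth_rewrite 2 [e]; rw [mul_neg, mul_inv_cancel₀ hs0]
        rw [show (ω : F) ^ 4 = ((ω : F) ^ 2) ^ 2 by ring, e2]; ring
      have := Nat.le_of_dvd (by omega) (hpowd 4 this)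
      omega
    have hlog : ∀ z : F, z ≠ 0 → ∃ j : ℕ, ((ω : F) ^ 2) ^ j = z ^ 2 := fun z hz => by
      obtain ⟨j, hj⟩ := mem_zpowers_iff_mem_range_orderOf.mp (hω (Units.mk0 z hz)) |> Finset.mem_image.mp
      exact ⟨j, by rw [← pow_mul, mul_comm, pow_mul, ← Units.val_pow_eq_pow_val, hj.2]; rfl⟩
    obtain ⟨l, hl⟩ := hlog γ hγ0
    obtain ⟨k, hk⟩ := hlog δ hδ0
    refine ⟨l, by_contra fun hne => ?_, fun _ => ⟨k, by rw [hk, hl, hsq]⟩⟩
    obtain ⟨Q, f, hf, hQ3, hQq, hQ⟩ := hsub _ hne
    rw [hl] at hQ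
    -- `ω² + ω⁻²` is fixed by the `Q`-th power
    have hx0 : (ω : F) ^ 2 ≠ 0 := pow_ne_zero _ hs0
    have e : (ω : F) ^ 2 + ((ω : F) ^ 2)⁻¹ = ((4 : ℕ) : F) * γ ^ 2 + ((2 : ℕ) : F) := by
      rw [hγ]; push_cast; field_simp; ring
    have hnat : ∀ n : ℕ, ((n : F)) ^ Q = n := fun n => by
      rw [hf, ← iterateFrobenius_def]; exact map_natCast _ n
    have hu : ((ω : F) ^ 2) ^ Q + (((ω : F) ^ 2) ^ Q)⁻¹ = (ω : F) ^ 2 + ((ω : F) ^ 2)⁻¹ := by
      conv_rhs => rw [e, ← hnat 4, ← hnat 2, ← hQ, ← mul_pow]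
      rw [← inv_pow, hf, ← add_pow_char_pow, ← add_pow_char_pow, e]
    have hfac : (((ω : F) ^ 2) ^ Q - (ω : F) ^ 2) * (((ω : F) ^ 2) ^ Q * (ω : F) ^ 2 - 1) = 0 := by
      field_simp at hu
      linear_combination hu
    rcases mul_eq_zero.mp hfac with h | h
    · have : (ω : F) ^ (2 * (Q - 1)) = 1 := by
        rw [pow_mul]
        apply mul_right_cancel₀ hx0
        rw [← pow_succ, show Q - 1 + 1 = Q by omega, one_mul, ← sub_eq_zero]; exact h
      have := Nat.le_of_dvd (by omega) (hpowd _ this)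
      have : 3 * Q ≤ Q * Q := Nat.mul_le_mul_right Q hQ3
      omega
    · have : (ω : F) ^ (2 * (Q + 1)) = 1 := by
        rw [pow_mul, pow_succ]; exact sub_eq_zero.mp h
      have h1 := Nat.le_of_dvd (by omega) (hpowd _ this)
      have : Q ≤ 3 := by
        by_contra hlt
        have : 4 * Q ≤ Q * Q := Nat.mul_le_mul_right Q (by omega)
        omega
      omega
  · refine ⟨1, by_contra fun hne => ?_, fun h => absurd h (by omega)⟩
    obtain ⟨Q, -, -, hQ3, hQq, hQ⟩ := hsub _ hne
    have hQe : Q = 3 := by nlinarith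
    rw [hQe, pow_one] at hQ
    have : (ω : F) ^ 4 = 1 := mul_right_cancel₀ (pow_ne_zero 2 ω.ne_zero) (by linear_combination hQ)
    have := Nat.le_of_dvd (by omega) (hpowd 4 this)
    subst hQe
    omega

end CfsgLib.SL2Pres.Short
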