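import Cfsg.Agent.SL2Pres.Recognise
import Cfsg.Agent.SL2Pres.Span
set_option autoImplicit false

/-!
Short presentations of `SL₂(F)`: the relations.
-/

namespace CfsgLib.SL2Pres.Short

open CfsgLib.SL2

variable {F : Type*} [Field F]

/-- The three generators in `SL₂(F)`. -/
def gens (ω : Fˣ) : Fin 3 → Matrix.SpecialLinearGroup (Fin 2) F := ![upperU 1, diagT ω, wOne F]

/-- Evaluation of words. -/
noncomputable def ev (ω : Fˣ) : FreeGroup (Fin 3) →* Matrix.SpecialLinearGroup (Fin 2) F := FreeGroup.lift (gens ω)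

/-- The generators. -/
abbrev gU : FreeGroup (Fin 3) := FreeGroup.of 0
/-- The generators. -/
abbrev gH : FreeGroup (Fin 3) := FreeGroup.of 1
/-- The generators. -/
abbrev gT : FreeGroup (Fin 3) := FreeGroup.of 2

@[simp] theorem ev_U (ω : Fˣ) : ev ω gU = upperU 1 := FreeGroup.lift_apply_of
@[simp] theorem ev_H (ω : Fˣ) : ev ω gH = diagT ω := FreeGroup.lift_apply_of
@[simp] theorem ev_T (ω : Fˣ) : ev ω gT = wOne F := FreeGroup.lift_apply_of

/-- The words representing the unipotent subgroup. -/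
def Uw (l n : ℕ) : Subgroup (FreeGroup (Fin 3)) :=
  Subgroup.closure (Set.range fun i : Fin n => (gH ^ l) ^ (i : ℕ) * gU * ((gH ^ l) ^ (i : ℕ))⁻¹)

theorem upperU_add (a b : F) : upperU a * upperU b = upperU (a + b) :=
  ((upperHom F).map_mul (Multiplicative.ofAdd a) (Multiplicative.ofAdd b)).symm

theorem ev_conj_pow (ω : Fˣ) (m : ℕ) :
    ev ω (gH ^ m * gU * (gH ^ m)⁻¹) = upperU (((ω : F) ^ 2) ^ m) := by
  rw [map_mul, map_mul, map_inv, map_pow, ev_H, ev_U, ← show diagHom F ω = diagT ω from rfl, ← map_pow]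
  show diagT (ω ^ m) * upperU 1 * (diagT (ω ^ m))⁻¹ = _
  rw [diag_conj, mul_one, Units.val_pow_eq_pow_val, ← pow_mul, mul_comm m 2, pow_mul]

/-- Every upper unitriangular element is the value of a word in `Uw`. -/
theorem exists_word (ω : Fˣ) (l n : ℕ)
    (hspan : AddSubgroup.closure (Set.range fun i : Fin n => (((ω : F) ^ 2) ^ l) ^ (i : ℕ)) = ⊤) (v : F) :
    ∃ W ∈ Uw l n, ev ω W = upperU v := by
  have hv : v ∈ AddSubgroup.closure (Set.range fun i : Fin n => (((ω : F) ^ 2) ^ l) ^ (i : ℕ)) := by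
    rw [hspan]; trivial
  induction hv using AddSubgroup.closure_induction with
  | mem y hy =>
    obtain ⟨i, rfl⟩ := hy
    refine ⟨_, Subgroup.subset_closure ⟨i, rfl⟩, ?_⟩
    show ev ω ((gH ^ l) ^ (i : ℕ) * gU * ((gH ^ l) ^ (i : ℕ))⁻¹) = _
    rw [← pow_mul gH, ev_conj_pow, pow_mul]
  | zero => exact ⟨1, one_mem _, by rw [map_one]; exact (upperHom F).map_one.symm⟩
  | add a b _ _ ha hb =>
    obtain ⟨A, hA, hA'⟩ := ha
    obtain ⟨B, hB, hB'⟩ := hb
    exact ⟨A * B, mul_mem hA hB, by rw [map_mul, hA', hB', upperU_add]⟩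
  | neg a _ ha =>
    obtain ⟨A, hA, hA'⟩ := ha
    exact ⟨A⁻¹, inv_mem hA, by
      rw [map_inv, hA']; exact ((upperHom F).map_inv (Multiplicative.ofAdd a)).symm⟩

/-- The word for `h` coming from `w(ω) w(-1)`. -/
def hWord (A B : FreeGroup (Fin 3)) : FreeGroup (Fin 3) := A * (gT * B * gT⁻¹) * A * gT⁻¹

theorem ev_hWord (ω : Fˣ) {A B : FreeGroup (Fin 3)} (hA : ev ω A = upperU (ω : F)) (hB : ev ω B = upperU ((ω : F)⁻¹)) :
    ev ω (hWord A B) = diagT ω := by
  simp only [hWord, map_mul, map_inv, ev_T, hA, hB]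
  exact w_prod ω

theorem ev_braid (ω : Fˣ) : ev ω (gU * (gT * gU * gT⁻¹) * gU) = wOne F := by
  simp only [map_mul, map_inv, ev_T, ev_U, w_one_conj]
  refine ext2 ?_ ?_ ?_ ?_ <;> simp [wOne, mul00, mul01, mul10, mul11]

/-- A group with generators satisfying the relations maps isomorphically to `SL₂(F)`. -/
theorem bijective_of_rels [Fintype F] (p : ℕ) [Fact p.Prime] (ω : Fˣ) (hω : ∀ z : Fˣ, z ∈ Subgroup.zpowers ω)
    (l n : ℕ) (hn : 0 < n) (hcard : p ^ n ≤ Fintype.card F)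
    (hspan : AddSubgroup.closure (Set.range fun i : Fin n => (((ω : F) ^ 2) ^ l) ^ (i : ℕ)) = ⊤)
    {G : Type*} [Group G] (f : FreeGroup (Fin 3) →* G) (hf : Function.Surjective f)
    (π : G →* Matrix.SpecialLinearGroup (Fin 2) F) (hπf : ∀ a, π (f a) = ev ω a)
    {Wr Wh A B : FreeGroup (Fin 3)} (hWr : Wr ∈ Uw l n) (hWh : Wh ∈ Uw l n) (hA : A ∈ Uw l n) (hB : B ∈ Uw l n)
    (hA' : ev ω A = upperU (ω : F)) (hB' : ev ω B = upperU ((ω : F)⁻¹))
    (r1 : f gU ^ p = 1) (hcomm : ∀ i, i < n → Commute (f gU) ((f gH ^ l) ^ i * f gU * ((f gH ^ l) ^ i)⁻¹))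
    (rrec : (f gH ^ l) ^ n * f gU * ((f gH ^ l) ^ n)⁻¹ = f Wr) (rh : f gH * f gU * (f gH)⁻¹ = f Wh)
    (rtht : f gT * f gH * (f gT)⁻¹ = (f gH)⁻¹) (rbraid : f gT = f gU * (f gT * f gU * (f gT)⁻¹) * f gU)
    (rdef : f gH = f (hWord A B)) (rtt : f gT * f gT * f gU * (f gT * f gT)⁻¹ = f gU) :
    Function.Bijective π := by
  set u := f gU with hu
  set h := f gH with hh
  set t := f gT with ht
  set b := h ^ l with hb
  set β := ((ω : F) ^ 2) ^ l with hβ
  have hUw : ∀ W ∈ Uw l n, f W ∈ Subgroup.closure (Set.range fun i : Fin n => b ^ (i : ℕ) * u * (b ^ (i : ℕ))⁻¹) := by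
    intro W hW
    have hle : Uw l n ≤ (Subgroup.closure (Set.range fun i : Fin n => b ^ (i : ℕ) * u * (b ^ (i : ℕ))⁻¹)).comap f := by
      refine (Subgroup.closure_le _).mpr ?_
      rintro _ ⟨i, rfl⟩
      refine Subgroup.subset_closure ⟨i, ?_⟩
      simp [hb, hu, hh, map_pow]
    exact hle hW
  have hπu : π u = upperU 1 := by rw [hu, hπf, ev_U]
  have hπh : π h = diagT ω := by rw [hh, hπf, ev_H]
  have hπt : π t = wOne F := by rw [ht, hπf, ev_T]
  have hπb : ∀ v, π b * upperU v * (π b)⁻¹ = upperU (β * v) := fun v => by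
    rw [hb, map_pow, hπh, ← show diagHom F ω = diagT ω from rfl, ← map_pow]
    show diagT (ω ^ l) * upperU v * (diagT (ω ^ l))⁻¹ = _
    rw [diag_conj, Units.val_pow_eq_pow_val, hβ, ← pow_mul, ← pow_mul, mul_comm l 2]
  have hrec := hUw _ hWr
  rw [← rrec] at hrec
  obtain ⟨x, hadd, hπx, hx1, hxU, huniq⟩ := exists_x π u b β n r1 hπu hπb hcomm hrec hspan hn hcard
  have hhx : ∀ v, h * x v * h⁻¹ = x ((ω : F) ^ 2 * v) :=
    conj_x π u b n x hπx hxU huniq hrec h ((Commute.refl h).pow_right l) _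
      (by rw [rh]; exact hUw _ hWh) (fun v => by rw [hπh, diag_conj])
  have htth : Commute (t * t) h := by
    show t * t * h = h * (t * t)
    calc t * t * h = t * (t * h * t⁻¹) * t := by group
      _ = t * h⁻¹ * t := by rw [rtht]
      _ = (t * h * t⁻¹)⁻¹ * (t * t) := by group
      _ = _ := by rw [rtht, inv_inv]
  have htx : ∀ v, t * t * x v * (t * t)⁻¹ = x v := fun v => by
    have := conj_x π u b n x hπx hxU huniq hrec (t * t) (htth.pow_right l) 1
      (by rw [rtt]; exact Subgroup.subset_closure ⟨⟨0, hn⟩, by simp⟩)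
      (fun v => by
        rw [map_mul, hπt, mul_inv_eq_iff_eq_mul]
        refine ext2 ?_ ?_ ?_ ?_ <;> simp [wOne, mul00, mul01, mul10, mul11]) v
    rwa [one_mul] at this
  refine bijective π h t x ω hω hadd hπx hπt hπh ?_ hhx htx rtht (by rw [hx1]; exact rbraid) ?_
  · have e : (⊤ : Subgroup G) = Subgroup.map f ⊤ := by
      rw [← MonoidHom.range_eq_map, MonoidHom.range_eq_top.mpr hf]
    rw [e, ← FreeGroup.closure_range_of, MonoidHom.map_closure, hx1, ← Set.range_comp]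
    congr 1
    ext z
    simp [Fin.exists_fin_succ, hu, hh, ht, eq_comm]
  · have ea : x (ω : F) = f A := (huniq _ (hUw _ hA) _ (by rw [hπf, hA'])).symm
    have eb : x ((ω : F)⁻¹) = f B := (huniq _ (hUw _ hB) _ (by rw [hπf, hB'])).symm
    rw [ea, eb, rdef]
    simp [hWord, ht]

end CfsgLib.SL2Pres.Short
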