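import Cfsg.Agent.SL2Pres.Normal
import Cfsg.Agent.SL2.Basic
set_option autoImplicit false

/-!
Short presentations of `SL₂(F)`: the unipotent subgroup from few relations.
-/

namespace CfsgLib.SL2Pres.Short

open CfsgLib.SL2

section Commuting

variable {G : Type*} [Group G] {u a b : G}

/-- Commuting of `u` with all its `b`-conjugates, from one commuting and one trinomial relation. -/
theorem commute_conj (hab : Commute a b) (h1 : Commute u (b * u * b⁻¹)) (ha : a * u * a⁻¹ = u * (b * u * b⁻¹))
    (n : ℕ) : Commute u (b ^ n * u * (b ^ n)⁻¹) := by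
  induction n using Nat.strong_induction_on with
  | _ n ih =>
    match n, ih with
    | 0, _ => simp
    | 1, _ => simpa using h1
    | m + 2, ih =>
      set v : ℕ → G := fun i => b ^ i * u * (b ^ i)⁻¹ with hv
      have hb : ∀ i, b * v i * b⁻¹ = v (i + 1) := fun i => by simp only [hv, pow_succ']; group
      have h01 : Commute u (v 1) := by simpa [hv] using h1
      have hi1 : Commute u (v (m + 1)) := ih (m + 1) (by omega)
      have him : Commute u (v m) := ih m (by omega)
      have hb' : ∀ {i}, Commute u (v i) → Commute (v 1) (v (i + 1)) := fun {i} h => by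
        have := h.map (MulAut.conj b).toMonoidHom
        simpa [hb, hv, pow_succ', mul_assoc] using this
      have h11 := hb' him
      have h12 := hb' hi1
      have hc : ∀ i, a * v i * a⁻¹ = v i * v (i + 1) := fun i => by
        have e : a * b ^ i = b ^ i * a := (hab.pow_right i).eq
        calc a * v i * a⁻¹ = (a * b ^ i) * u * (a * b ^ i)⁻¹ := by simp only [hv]; group
          _ = b ^ i * (a * u * a⁻¹) * (b ^ i)⁻¹ := by rw [e]; group
          _ = _ := by rw [ha]; simp only [hv, pow_succ]; group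
      have h2 := hi1.map (MulAut.conj a).toMonoidHom
      have h3 : Commute (u * v 1) (v (m + 1) * v (m + 2)) := by
        have e0 := hc 0
        rw [show v 0 = u by simp [hv]] at e0
        simpa [hc (m + 1), e0] using h2
      have e1 : u * v (m + 2) * (v 1 * v (m + 1)) = v (m + 2) * u * (v 1 * v (m + 1)) := by
        calc u * v (m + 2) * (v 1 * v (m + 1)) = u * (v (m + 2) * v 1) * v (m + 1) := by group
          _ = (u * v 1) * (v (m + 2) * v (m + 1)) := by rw [← h12.eq]; group
          _ = (u * v 1) * (v (m + 1) * v (m + 2)) := by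
            congr 1
            have := (h1.map (MulAut.conj (b ^ (m + 1))).toMonoidHom).eq
            simp only [MulEquiv.coe_toMonoidHom, MulAut.conj_apply] at this
            simp only [hv]
            simpa [pow_succ, mul_assoc] using this.symm
          _ = v (m + 1) * v (m + 2) * (u * v 1) := h3.eq
          _ = v (m + 2) * (v (m + 1) * u) * v 1 := by
            have := (h1.map (MulAut.conj (b ^ (m + 1))).toMonoidHom).eq
            simp only [MulEquiv.coe_toMonoidHom, MulAut.conj_apply] at this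
            rw [show v (m + 1) * v (m + 2) = v (m + 2) * v (m + 1) by simpa [hv, pow_succ, mul_assoc] using this]
            group
          _ = v (m + 2) * (u * v (m + 1)) * v 1 := by rw [hi1.eq]
          _ = _ := by
            calc _ = v (m + 2) * u * (v (m + 1) * v 1) := by group
              _ = _ := by rw [h11.eq]
      exact mul_right_cancel e1

theorem commute_all {n : ℕ} (h : ∀ i, i < n → Commute u (b ^ i * u * (b ^ i)⁻¹)) {i j : ℕ} (hi : i < n) (hj : j < n) :
    Commute (b ^ i * u * (b ^ i)⁻¹) (b ^ j * u * (b ^ j)⁻¹) := by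
  rcases le_total i j with hij | hij
  · obtain ⟨k, rfl⟩ := Nat.exists_eq_add_of_le hij
    have := (h k (by omega)).map (MulAut.conj (b ^ i)).toMonoidHom
    simp only [MulEquiv.coe_toMonoidHom, MulAut.conj_apply] at this
    simpa [pow_add, mul_assoc] using this
  · obtain ⟨k, rfl⟩ := Nat.exists_eq_add_of_le hij
    have := (h k (by omega)).map (MulAut.conj (b ^ j)).toMonoidHom
    simp only [MulEquiv.coe_toMonoidHom, MulAut.conj_apply] at this
    simpa [pow_add, mul_assoc] using this.symm

end Commuting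

/-- `t ↦ upperU t`. -/
def upperHom (F : Type*) [Field F] : Multiplicative F →* Matrix.SpecialLinearGroup (Fin 2) F where
  toFun t := upperU t.toAdd
  map_one' := ext2 (by simp) (by simp) (by simp) (by simp)
  map_mul' a b := ext2 (by simp [mul00]) (by simp [mul01, add_comm]) (by simp [mul10]) (by simp [mul11])

theorem upperHom_apply {F : Type*} [Field F] (v : F) : upperHom F (Multiplicative.ofAdd v) = upperU v := rfl

theorem upperU_injective {F : Type*} [Field F] : Function.Injective (upperU : F → _) := fun a b h => by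
  simpa using congrArg (fun M : Matrix.SpecialLinearGroup (Fin 2) F => M.1 0 1) h

variable {F : Type*} [Field F] [Fintype F] {p : ℕ} [Fact p.Prime]

/-- The unipotent subgroup, parametrised by `F`. -/
theorem exists_x {G : Type*} [Group G] (π : G →* Matrix.SpecialLinearGroup (Fin 2) F) (u b : G) (β : F) (n : ℕ)
    (hu : u ^ p = 1) (hπu : π u = upperU 1) (hπb : ∀ v, π b * upperU v * (π b)⁻¹ = upperU (β * v))
    (hcomm : ∀ i, i < n → Commute u (b ^ i * u * (b ^ i)⁻¹))
    (hrec : b ^ n * u * (b ^ n)⁻¹ ∈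
      Subgroup.closure (Set.range fun i : Fin n => b ^ (i : ℕ) * u * (b ^ (i : ℕ))⁻¹))
    (hspan : AddSubgroup.closure (Set.range fun i : Fin n => β ^ (i : ℕ)) = ⊤) (hn : 0 < n)
    (hcard : p ^ n ≤ Fintype.card F) :
    ∃ x : F → G, (∀ v w, x (v + w) = x v * x w) ∧ (∀ v, π (x v) = upperU v) ∧ x 1 = u ∧
      (∀ v, x v ∈ Subgroup.closure (Set.range fun i : Fin n => b ^ (i : ℕ) * u * (b ^ (i : ℕ))⁻¹)) ∧
      ∀ z ∈ Subgroup.closure (Set.range fun i : Fin n => b ^ (i : ℕ) * u * (b ^ (i : ℕ))⁻¹),
        ∀ v, π z = upperU v → z = x v := by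
  classical
  set e : Fin n → G := fun i => b ^ (i : ℕ) * u * (b ^ (i : ℕ))⁻¹ with he
  set U := Subgroup.closure (Set.range e) with hU
  have : IsMulCommutative U := Subgroup.isMulCommutative_closure (by
    rintro _ ⟨i, rfl⟩ _ ⟨j, rfl⟩
    exact (commute_all hcomm i.2 j.2).eq)
  -- `U` is small
  let eU : Fin n → U := fun i => ⟨e i, Subgroup.subset_closure ⟨i, rfl⟩⟩
  let _ : CommGroup U := { (inferInstance : Group U) with mul_comm := fun a b => IsMulCommutative.is_comm.comm a b }
  let Φ : (Fin n → Multiplicative (ZMod p)) →* U :=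
    { toFun := fun c => ∏ i, eU i ^ (c i).toAdd.val
      map_one' := by simp
      map_mul' := fun c d => by
        rw [← Finset.prod_mul_distrib]
        refine Finset.prod_congr rfl fun i _ => ?_
        rw [← pow_add, pow_eq_pow_mod ((c i).toAdd.val + (d i).toAdd.val) (?_ : eU i ^ p = 1)]
        · congr 1
          exact ZMod.val_add _ _
        · refine Subtype.ext ?_
          show (e i) ^ p = 1
          rw [he, conj_pow, hu, mul_one, mul_inv_cancel] }
  have hΦ : Function.Surjective Φ := by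
    intro y
    have hle : U ≤ Subgroup.map U.subtype Φ.range := by
      refine (Subgroup.closure_le _).mpr ?_
      rintro _ ⟨i, rfl⟩
      refine ⟨eU i, ⟨Pi.mulSingle i (Multiplicative.ofAdd 1), ?_⟩, rfl⟩
      show ∏ j, eU j ^ ((Pi.mulSingle i (Multiplicative.ofAdd (1 : ZMod p)) : Fin n → _) j).toAdd.val = eU i
      rw [Finset.prod_eq_single i]
      · simp [ZMod.val_one]
      · intro j _ hj
        simp [Pi.mulSingle_eq_of_ne hj]
      · simp
    obtain ⟨z, hz, hzy⟩ := hle y.2
    obtain rfl : z = y := Subtype.ext hzy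
    exact hz
  have hcardU : Nat.card U ≤ Fintype.card F := by
    refine le_trans (Nat.card_le_card_of_surjective Φ hΦ) (le_of_eq_of_le ?_ hcard)
    simp
  have : Finite U := Finite.of_surjective Φ hΦ
  -- the projection is a bijection with the upper unitriangular group
  have hπe : ∀ k : ℕ, π (b ^ k * u * (b ^ k)⁻¹) = upperU (β ^ k) := by
    intro k
    induction k with
    | zero => simp [hπu]
    | succ k ih =>
      rw [show b ^ (k + 1) * u * (b ^ (k + 1))⁻¹ = b * (b ^ k * u * (b ^ k)⁻¹) * b⁻¹ by rw [pow_succ']; group,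
        map_mul, map_mul, map_inv, ih, hπb, ← pow_succ']
  have hmem : ∀ z ∈ U, ∃ v, π z = upperU v := by
    intro z hz
    have hle : U ≤ (upperHom F).range.comap π := by
      rw [hU, Subgroup.closure_le]
      rintro _ ⟨i, rfl⟩
      exact ⟨Multiplicative.ofAdd (β ^ (i : ℕ)), (hπe i).symm⟩
    obtain ⟨v, hv⟩ := hle hz
    exact ⟨v.toAdd, hv.symm⟩
  choose lg hlg using fun z : U => hmem z.1 z.2
  have hsurj : Function.Surjective lg := by
    intro v
    have hv : v ∈ AddSubgroup.closure (Set.range fun i : Fin n => β ^ (i : ℕ)) := by rw [hspan]; trivial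
    induction hv using AddSubgroup.closure_induction with
    | mem y hy =>
      obtain ⟨i, rfl⟩ := hy
      exact ⟨eU i, upperU_injective (by rw [← hlg]; exact hπe i)⟩
    | zero =>
      exact ⟨1, upperU_injective (by
        rw [← hlg, OneMemClass.coe_one, map_one]; exact (upperHom F).map_one.symm)⟩
    | add y y' _ _ hy hy' =>
      obtain ⟨z, rfl⟩ := hy
      obtain ⟨z', rfl⟩ := hy'
      exact ⟨z * z', upperU_injective (by
        rw [← hlg, Subgroup.coe_mul, map_mul, hlg, hlg]
        exact ((upperHom F).map_mul (Multiplicative.ofAdd (lg z)) (Multiplicative.ofAdd (lg z'))).symm)⟩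
    | neg y _ hy =>
      obtain ⟨z, rfl⟩ := hy
      exact ⟨z⁻¹, upperU_injective (by
        rw [← hlg, Subgroup.coe_inv, map_inv, hlg]
        exact ((upperHom F).map_inv (Multiplicative.ofAdd (lg z))).symm)⟩
  have hbij : Function.Bijective lg := by
    rw [Nat.bijective_iff_surjective_and_card]
    refine ⟨hsurj, le_antisymm (by rwa [Nat.card_eq_fintype_card (α := F)]) ?_⟩
    exact Nat.card_le_card_of_surjective lg hsurj
  let ψ := Equiv.ofBijective lg hbij
  have huniq : ∀ z ∈ U, ∀ v, π z = upperU v → z = (ψ.symm v).1 := by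
    intro z hz v hv
    have h1 : lg ⟨z, hz⟩ = v := upperU_injective (by rw [← hlg]; exact hv)
    rw [← h1, show lg ⟨z, hz⟩ = ψ ⟨z, hz⟩ from rfl, Equiv.symm_apply_apply]
  have hπx : ∀ v, π (ψ.symm v).1 = upperU v := fun v => by
    rw [hlg, show lg (ψ.symm v) = ψ (ψ.symm v) from rfl, Equiv.apply_symm_apply]
  refine ⟨fun v => (ψ.symm v).1, fun v w => ?_, hπx, ?_, fun v => (ψ.symm v).2, huniq⟩
  · refine (huniq _ (mul_mem (ψ.symm v).2 (ψ.symm w).2) _ ?_).symm
    rw [map_mul, hπx, hπx]
    exact ((upperHom F).map_mul (Multiplicative.ofAdd v) (Multiplicative.ofAdd w)).symm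
  · refine (huniq u (Subgroup.subset_closure ⟨⟨0, hn⟩, ?_⟩) 1 hπu).symm
    simp [e]

/-- Elements commuting with `b` which move `u` into the unipotent subgroup act on it by scalars. -/
theorem conj_x {G : Type*} [Group G] (π : G →* Matrix.SpecialLinearGroup (Fin 2) F) (u b : G) (n : ℕ)
    (x : F → G) (hπx : ∀ v, π (x v) = upperU v)
    (hx : ∀ v, x v ∈ Subgroup.closure (Set.range fun i : Fin n => b ^ (i : ℕ) * u * (b ^ (i : ℕ))⁻¹))
    (huniq : ∀ z ∈ Subgroup.closure (Set.range fun i : Fin n => b ^ (i : ℕ) * u * (b ^ (i : ℕ))⁻¹),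
        ∀ v, π z = upperU v → z = x v)
    (hrec : b ^ n * u * (b ^ n)⁻¹ ∈
      Subgroup.closure (Set.range fun i : Fin n => b ^ (i : ℕ) * u * (b ^ (i : ℕ))⁻¹))
    (k : G) (hkb : Commute k b) (e : F)
    (hk : k * u * k⁻¹ ∈ Subgroup.closure (Set.range fun i : Fin n => b ^ (i : ℕ) * u * (b ^ (i : ℕ))⁻¹))
    (hπk : ∀ v, π k * upperU v * (π k)⁻¹ = upperU (e * v)) (v : F) :
    k * x v * k⁻¹ = x (e * v) := by
  set U := Subgroup.closure (Set.range fun i : Fin n => b ^ (i : ℕ) * u * (b ^ (i : ℕ))⁻¹) with hU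
  have hb : ∀ z ∈ U, b * z * b⁻¹ ∈ U := by
    have hle : U ≤ U.comap (MulAut.conj b).toMonoidHom := by
      rw [hU, Subgroup.closure_le]
      rintro _ ⟨i, rfl⟩
      simp only [SetLike.mem_coe, Subgroup.mem_comap, MulEquiv.coe_toMonoidHom, MulAut.conj_apply]
      have e1 : b * (b ^ (i : ℕ) * u * (b ^ (i : ℕ))⁻¹) * b⁻¹ = b ^ (i.1 + 1) * u * (b ^ (i.1 + 1))⁻¹ := by
        rw [pow_succ']; group
      rw [e1]
      rcases Nat.lt_or_ge (i.1 + 1) n with h | h
      · exact Subgroup.subset_closure ⟨⟨i.1 + 1, h⟩, rfl⟩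
      · rw [show i.1 + 1 = n by omega]; exact hrec
    exact fun z hz => hle hz
  have hbpow : ∀ (i : ℕ), ∀ z ∈ U, b ^ i * z * (b ^ i)⁻¹ ∈ U := by
    intro i
    induction i with
    | zero => simp
    | succ i ih =>
      intro z hz
      have e1 : b ^ (i + 1) * z * (b ^ (i + 1))⁻¹ = b * (b ^ i * z * (b ^ i)⁻¹) * b⁻¹ := by rw [pow_succ']; group
      rw [e1]; exact hb _ (ih z hz)
  have hkU : U ≤ U.comap (MulAut.conj k).toMonoidHom := by
    rw [hU, Subgroup.closure_le]
    rintro _ ⟨i, rfl⟩
    simp only [SetLike.mem_coe, Subgroup.mem_comap, MulEquiv.coe_toMonoidHom, MulAut.conj_apply]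
    have e1 : k * b ^ (i : ℕ) = b ^ (i : ℕ) * k := (hkb.pow_right i.1).eq
    rw [show k * (b ^ (i : ℕ) * u * (b ^ (i : ℕ))⁻¹) * k⁻¹ = (k * b ^ (i : ℕ)) * u * (k * b ^ (i : ℕ))⁻¹ by group,
      e1, show b ^ (i : ℕ) * k * u * (b ^ (i : ℕ) * k)⁻¹ = b ^ (i : ℕ) * (k * u * k⁻¹) * (b ^ (i : ℕ))⁻¹ by group]
    exact hbpow _ _ hk
  refine huniq _ (show k * x v * k⁻¹ ∈ U from hkU (hx v)) _ ?_
  rw [map_mul, map_mul, map_inv, hπx, hπk]

end CfsgLib.SL2Pres.Short
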